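import Mathlib
import Cfsg.Agent.Lib.Helper58.SpecProd.Defs

/-!
# SpecProd (S2510, S2513) package [DEC]: `PkgDec`

A matrix of `SL_n(q)` whose characteristic polynomial has two coprime non-constant factors
commutes with a non-central `z ∈ SL_n(q)` with `z ^ r = 1` (`r` prime, `r ∣ q - 1`, `r ∤ n`).
-/

set_option autoImplicit false

namespace Cfsg.Agent.Lib.Helper66.SpecProd

open Polynomial

universe u

/-- An irreducible factor of the characteristic polynomial of `M` divides every polynomial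
killing `M`. -/
theorem dec_dvd_of_aeval_eq_zero {K : Type u} [Field K] {n : ℕ} (M : Matrix (Fin n) (Fin n) K)
    (π g : K[X]) (hπ : Irreducible π) (hdvd : π ∣ M.charpoly) (hg : aeval M g = 0) : π ∣ g := by
  classical
  by_contra hnd
  obtain ⟨u, w, huw⟩ := (Irreducible.coprime_iff_not_dvd hπ).mpr hnd
  -- `aeval M π` is invertible
  have h1 : aeval M u * aeval M π = 1 := by
    have := congrArg (aeval M) huw
    rw [map_add, map_mul, map_mul, hg, mul_zero, add_zero, map_one] at this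
    exact this
  have hdet : (aeval M π).det ≠ 0 := by
    intro h0
    have := congrArg Matrix.det h1
    rw [Matrix.det_mul, h0, mul_zero, Matrix.det_one] at this
    exact zero_ne_one this
  -- pass to `L = K[X]/(π)`
  have : Fact (Irreducible π) := ⟨hπ⟩
  set φ : K →+* AdjoinRoot π := AdjoinRoot.of π with hφ
  set x : AdjoinRoot π := AdjoinRoot.root π with hx
  set ML : Matrix (Fin n) (Fin n) (AdjoinRoot π) := M.map φ with hML
  have hroot : (ML.charpoly).eval x = 0 := by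
    rw [hML, Matrix.charpoly_map]
    obtain ⟨k, hk⟩ := hdvd
    rw [hk, Polynomial.map_mul, eval_mul, ← eval₂_eq_eval_map, AdjoinRoot.eval₂_root, zero_mul]
  have hdet0 : (Matrix.scalar (Fin n) x - ML).det = 0 := by
    rw [← Matrix.eval_charpoly]; exact hroot
  have hcomp : (algebraMap (AdjoinRoot π) (Matrix (Fin n) (Fin n) (AdjoinRoot π))).comp φ =
      (φ.mapMatrix).comp (algebraMap K (Matrix (Fin n) (Fin n) K)) := by
    ext k i j
    by_cases hij : i = j
    · subst hij; simp [Matrix.algebraMap_matrix_apply]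
    · simp [Matrix.algebraMap_matrix_apply, hij]
  have hmap : φ.mapMatrix (aeval M π) = aeval ML (π.map φ) :=
    Polynomial.map_aeval_eq_aeval_map hcomp π M
  have hπx : (π.map φ).IsRoot x := by
    rw [IsRoot, ← eval₂_eq_eval_map, AdjoinRoot.eval₂_root]
  obtain ⟨q, hq⟩ := (dvd_iff_isRoot.mpr hπx)
  have h2 : aeval ML (π.map φ) = (ML - Matrix.scalar (Fin n) x) * aeval ML q := by
    rw [hq, map_mul, map_sub, aeval_X, aeval_C]
    rfl
  have h3 : (φ.mapMatrix (aeval M π)).det = 0 := by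
    rw [hmap, h2, Matrix.det_mul]
    have : ML - Matrix.scalar (Fin n) x = -(Matrix.scalar (Fin n) x - ML) := by abel
    rw [this, Matrix.det_neg, hdet0, mul_zero, zero_mul]
  rw [← RingHom.map_det] at h3
  exact hdet ((map_eq_zero φ).mp h3)

theorem pkgDec : Cfsg.Agent.Lib.Helper58.SpecProd.PkgDec.{u} := by
  intro F _ _ n r hr hrq hrn A χ₁ χ₂ hχ hcop hdeg1 hdeg2
  classical
  have : Fact r.Prime := ⟨hr⟩
  obtain ⟨ζu, hζu⟩ := exists_prime_orderOf_dvd_card (G := Fˣ) r
    (by rw [Fintype.card_units]; exact hrq)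
  set ζ : F := (ζu : F) with hζ
  have hζr : ζ ^ r = 1 := by
    have h := pow_orderOf_eq_one ζu
    rw [hζu] at h
    have h' := congrArg (fun u : Fˣ => (u : F)) h
    simpa using h'
  have hζn : ζ ^ n ≠ 1 := by
    intro h
    have h' : ζu ^ n = 1 := Units.ext (by simpa using h)
    have h'' := orderOf_dvd_of_pow_eq_one h'
    rw [hζu] at h''
    exact hrn h''
  obtain ⟨a, b, hab⟩ := hcop
  set M : Matrix (Fin n) (Fin n) F := (A : Matrix (Fin n) (Fin n) F) with hM
  set h₀ : F[X] := C ζ * (b * χ₂) + a * χ₁ with hh₀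
  have hd1 : χ₁ ∣ h₀ - C ζ := ⟨a * (1 - C ζ), by rw [hh₀]; linear_combination (C ζ) * hab⟩
  have hd2 : χ₂ ∣ h₀ - 1 := ⟨b * (C ζ - 1), by rw [hh₀]; linear_combination hab⟩
  have hCζr : (C ζ : F[X]) ^ r = 1 := by rw [← C_pow, hζr, C_1]
  have hd : M.charpoly ∣ h₀ ^ r - 1 := by
    rw [hχ]
    refine IsCoprime.mul_dvd ⟨a, b, hab⟩ ?_ ?_
    · have := sub_dvd_pow_sub_pow h₀ (C ζ) r
      rw [hCζr] at this
      exact hd1.trans this
    · have := sub_dvd_pow_sub_pow h₀ (1 : F[X]) r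
      rw [one_pow] at this
      exact hd2.trans this
  set z₀ : Matrix (Fin n) (Fin n) F := aeval M h₀ with hz₀
  have hz₀r : z₀ ^ r = 1 := by
    obtain ⟨k, hk⟩ := hd
    have := congrArg (aeval M) hk
    rw [map_mul, Matrix.aeval_self_charpoly, zero_mul, map_sub, map_pow, map_one] at this
    exact sub_eq_zero.mp this
  set δ : F := z₀.det with hδ
  have hδr : δ ^ r = 1 := by rw [hδ, ← Matrix.det_pow, hz₀r, Matrix.det_one]
  have hδ0 : δ ≠ 0 := by
    intro h0
    rw [h0, zero_pow hr.ne_zero] at hδr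
    exact zero_ne_one hδr
  set Zm : Matrix (Fin n) (Fin n) F := δ⁻¹ • z₀ ^ n with hZm
  have hdetZ : Zm.det = 1 := by
    rw [hZm, Matrix.det_smul, Matrix.det_pow, Fintype.card_fin, ← hδ, ← mul_pow,
      inv_mul_cancel₀ hδ0, one_pow]
  have hcomm0 : Commute M z₀ := by
    have h := congrArg (aeval M) (mul_comm (X : F[X]) h₀)
    rw [map_mul, map_mul, aeval_X] at h
    exact h
  have hcomm : Commute M Zm := by
    rw [hZm]
    exact (hcomm0.pow_right n).smul_right δ⁻¹
  obtain ⟨z, hz⟩ : ∃ z : Matrix.SpecialLinearGroup (Fin n) F,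
      (z : Matrix (Fin n) (Fin n) F) = Zm := ⟨⟨Zm, hdetZ⟩, rfl⟩
  refine ⟨z, ?_, ?_, ?_⟩
  · apply Subtype.ext
    show M * (z : Matrix (Fin n) (Fin n) F) = (z : Matrix (Fin n) (Fin n) F) * M
    rw [hz]
    exact hcomm.eq
  · have hpow : Zm ^ r = 1 := by
      rw [hZm, _root_.smul_pow, ← pow_mul, mul_comm n r, pow_mul, hz₀r, one_pow, inv_pow, hδr, inv_one,
        one_smul]
    apply Subtype.ext
    refine (Matrix.SpecialLinearGroup.coe_pow _ _).trans ?_
    rw [hz]
    exact hpow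
  · intro hc
    rw [Matrix.SpecialLinearGroup.mem_center_iff] at hc
    obtain ⟨c', -, hc'⟩ := hc
    have hc'' : Matrix.scalar (Fin n) c' = Zm := hc'.trans hz
    have hzn : z₀ ^ n = algebraMap F (Matrix (Fin n) (Fin n) F) (δ * c') := by
      have h1 : z₀ ^ n = δ • Zm := by
        rw [hZm, smul_smul, mul_inv_cancel₀ hδ0, one_smul]
      rw [h1, ← hc'']
      ext i j
      simp [Matrix.algebraMap_matrix_apply, Matrix.scalar_apply, Matrix.diagonal_apply]
    have hkill : aeval M (h₀ ^ n - C (δ * c')) = 0 := by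
      rw [map_sub, map_pow, aeval_C, ← hz₀, hzn, sub_self]
    -- constants divisible by an irreducible polynomial vanish
    have hconst : ∀ (π : F[X]) (k : F), Irreducible π → π ∣ C k → k = 0 := by
      intro π k hπ hk
      by_contra hk0
      exact hπ.not_isUnit (isUnit_of_dvd_unit hk (Polynomial.isUnit_C.mpr (IsUnit.mk0 k hk0)))
    obtain ⟨π₁, hπ₁, hπ₁χ⟩ := Polynomial.exists_irreducible_of_natDegree_pos (f := χ₁) (by omega)
    obtain ⟨π₂, hπ₂, hπ₂χ⟩ := Polynomial.exists_irreducible_of_natDegree_pos (f := χ₂) (by omega)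
    have e1 : π₁ ∣ h₀ ^ n - C (δ * c') :=
      dec_dvd_of_aeval_eq_zero M π₁ _ hπ₁ (hχ ▸ hπ₁χ.trans (dvd_mul_right _ _)) hkill
    have e2 : π₂ ∣ h₀ ^ n - C (δ * c') :=
      dec_dvd_of_aeval_eq_zero M π₂ _ hπ₂ (hχ ▸ hπ₂χ.trans (dvd_mul_left _ _)) hkill
    have f1 : π₁ ∣ h₀ ^ n - (C ζ) ^ n := (hπ₁χ.trans hd1).trans (sub_dvd_pow_sub_pow h₀ (C ζ) n)
    have f2 : π₂ ∣ h₀ ^ n - 1 := by
      have := (hπ₂χ.trans hd2).trans (sub_dvd_pow_sub_pow h₀ (1 : F[X]) n)
      rwa [one_pow] at this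
    have g1 : π₁ ∣ C (ζ ^ n - δ * c') := by
      have := dvd_sub e1 f1
      have h : h₀ ^ n - C (δ * c') - (h₀ ^ n - C ζ ^ n) = C (ζ ^ n - δ * c') := by
        rw [C_sub, C_pow]; ring
      rwa [h] at this
    have g2 : π₂ ∣ C (1 - δ * c') := by
      have := dvd_sub e2 f2
      have h : h₀ ^ n - C (δ * c') - (h₀ ^ n - 1) = C (1 - δ * c') := by
        rw [C_sub, C_1]; ring
      rwa [h] at this
    have k1 := hconst π₁ _ hπ₁ g1
    have k2 := hconst π₂ _ hπ₂ g2
    apply hζn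
    rw [sub_eq_zero] at k1 k2
    rw [k1, ← k2]

end Cfsg.Agent.Lib.Helper66.SpecProd
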