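import Mathlib
import Cfsg.Agent.Lib.Helper58.SpecProd.Defs

/-!
# SpecProd (S2510, S2513) package [SOP]: `PkgSplitOrPow`

A monic non-constant polynomial over a field splits into two coprime non-constant factors or is
a power of a monic irreducible polynomial.
-/

set_option autoImplicit false

namespace Cfsg.Agent.Lib.Helper66.SpecProd

open Polynomial

universe u

theorem pkgSplitOrPow : Cfsg.Agent.Lib.Helper58.SpecProd.PkgSplitOrPow.{u} := by
  intro F _ χ hχ hdeg
  classical
  have hχ0 : χ ≠ 0 := hχ.ne_zero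
  obtain ⟨g, hg, hgχ⟩ := Polynomial.exists_irreducible_of_natDegree_pos (f := χ) (by omega)
  -- normalise `g` to a monic irreducible factor
  have hlc : g.leadingCoeff ≠ 0 := leadingCoeff_ne_zero.mpr hg.ne_zero
  set f : F[X] := g * C (g.leadingCoeff)⁻¹ with hf
  have hfm : f.Monic := monic_mul_leadingCoeff_inv hg.ne_zero
  have hfg : Associated g f :=
    ⟨(Polynomial.isUnit_C.mpr (IsUnit.mk0 _ (inv_ne_zero hlc))).unit, rfl⟩
  have hfi : Irreducible f := hfg.irreducible hg
  have hfχ : f ∣ χ := hfg.dvd_iff_dvd_left.mp hgχ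
  have hfin : FiniteMultiplicity f χ :=
    FiniteMultiplicity.of_not_isUnit hfi.not_isUnit hχ0
  obtain ⟨χ₂, hχ₂, hnd⟩ := hfin.exists_eq_pow_mul_and_not_dvd
  set e := multiplicity f χ with he
  have he1 : 1 ≤ e := by
    by_contra h
    have h0 : e = 0 := by omega
    rw [h0, pow_zero, one_mul] at hχ₂
    exact hnd (hχ₂ ▸ hfχ)
  have hfem : (f ^ e).Monic := hfm.pow e
  have hχ₂m : χ₂.Monic := by
    have : (f ^ e * χ₂).Monic := hχ₂ ▸ hχ
    exact hfem.of_mul_monic_left this
  by_cases h2 : χ₂.natDegree = 0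
  · right
    have : χ₂ = 1 := Polynomial.eq_one_of_monic_natDegree_zero hχ₂m h2
    exact ⟨f, e, hfi, hfm, he1, by rw [hχ₂, this, mul_one]⟩
  · left
    refine ⟨f ^ e, χ₂, hχ₂, ?_, ?_, by omega⟩
    · exact ((Irreducible.coprime_iff_not_dvd hfi).mpr hnd).pow_left
    · have hfd : 1 ≤ f.natDegree := hfi.natDegree_pos
      rw [hfm.natDegree_pow]
      exact le_trans hfd (Nat.le_mul_of_pos_left _ (by omega))

end Cfsg.Agent.Lib.Helper66.SpecProd
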